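import Cfsg.Agent.H150.Pw.ESix
import Cfsg.Agent.H143.Pw.ESix

/-!
# `E₆(2)`, `E₆(3)`: the rows of S2465 (with the corner of helper143)
-/

set_option autoImplicit false

namespace Cfsg.Agent.H150.Pw

open Cfsg.Lie Cfsg.Agent.ChevalleyStructure Cfsg.Agent.H78.Pw
open Cfsg.Agent.H150.E6T (hp6 cs6)

universe u

variable {K : Type u} [Field K] [Finite K]

theorem corner (hK : Nat.card K = 2 ∨ Nat.card K = 3) : Corner K := by
  intro g hg
  obtain ⟨p, hpc⟩ := CharP.exists K
  have : Fact p.Prime := ⟨(CharP.char_is_prime_or_zero K p).resolve_right (CharP.char_ne_zero_of_finite K p)⟩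
  have hS : IsSimpleGroup ↥(chevE6.group K) ∧ ¬ IsMulCommutative ↥(chevE6.group K) :=
    Cfsg.Agent.S1054.result chevE6 (by simp)
  exact Cfsg.Agent.H143.Pw.ESix.corner hK (Cfsg.Agent.H224.Ore.Row.not_mem_core (by norm_num) hS.1 p hp6 hg)

/-- **`E₆(2)`** : every element is a product of two elements of order `31` (or `1`). -/
theorem pairs_two (hK : Nat.card K = 2) (g : ↥(chevE6.group K)) :
    ∃ a b : ↥(chevE6.group K), g = a * b ∧ a ^ 31 = 1 ∧ b ^ 31 = 1 := by
  have h := pairs_small (corner (Or.inl hK)) (a5_two hK) g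
  rw [hK] at h
  exact h

theorem six_E6_two (hK : Nat.card K = 2) : All 6 ↥(chevE6.group K) :=
  six_small (corner (Or.inl hK)) (a5_two hK)

theorem six_E6_three_of (hK : Nat.card K = 3) (h5 : A5 K) : All 6 ↥(chevE6.group K) :=
  six_small (corner (Or.inr hK)) h5

end Cfsg.Agent.H150.Pw
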