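import Cfsg.Agent.H150.Pw.ERow
import Cfsg.Agent.H126.PwO.FiveThree

/-!
# `E₆(3)`: the row of S2465 (with `SL₅(3)` of helper126)
-/

set_option autoImplicit false

namespace Cfsg.Agent.H150.Pw

open Cfsg.Lie Cfsg.Agent.ChevalleyStructure Cfsg.Agent.H78.Pw
open Cfsg.Agent.H126.PwO.Five (pF pF_dvd pF_irr p5_3)
open Polynomial

universe u

variable {K : Type u} [Field K] [Finite K]

omit [Finite K] in
theorem pow_of_pF [CharP K 3] {X : Matrix (Fin 5) (Fin 5) K} (h : X.charpoly = pF K) : X ^ 121 = 1 := by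
  have h1 : X ^ 11 = 1 := by
    obtain ⟨r, hr⟩ := pF_dvd (F := K)
    have h2 : aeval X (pF K) = 0 := by rw [← h]; exact Matrix.aeval_self_charpoly X
    have h3 := congrArg (aeval X) hr
    rw [map_mul, h2, zero_mul, map_sub, map_pow, aeval_X, map_one] at h3
    exact sub_eq_zero.1 h3
  calc X ^ 121 = (X ^ 11) ^ 11 := by rw [← pow_mul]
    _ = 1 := by rw [h1, one_pow]

theorem a5_three (hK : Nat.card K = 3) : A5 K := by
  have : Fact (Nat.Prime 3) := ⟨Nat.prime_three⟩
  obtain ⟨hch, -⟩ := Cfsg.Agent.H374.Ore.Sl3.exists_cast (K := K) hK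
  refine a5_three_of hK fun A hA hs => ?_
  obtain ⟨X, Y, e, hX, hY⟩ := p5_3 hK A hA hs
  exact ⟨X, Y, e, by rw [hX]; exact pF_irr hK, by rw [hY]; exact pF_irr hK, pow_of_pF hX, pow_of_pF hY⟩

/-- **`E₆(3)`** : every element is a product of two elements of order prime to `6`. -/
theorem six_E6_three (hK : Nat.card K = 3) : All 6 ↥(chevE6.group K) :=
  six_E6_three_of hK (a5_three hK)

end Cfsg.Agent.H150.Pw
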